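import Mathlib

/-! Frame for the amalgam step of the 3-local recognition of `Alt(9)` (helper7).
`a = (123)`, `σ π = π` on `{4,…,9}` times `(12)^{sign π}`, `s = (17)(28)(39)(45)`. -/

set_option autoImplicit false

namespace Cfsg.Agent.A9M

open Equiv Subgroup

/-- `a₂ = (4 5 6)` -/
def c2 : Perm (Fin 6) := swap 0 2 * swap 0 1
/-- `a₃ = (7 8 9)` -/
def c3 : Perm (Fin 6) := swap 3 5 * swap 3 4
/-- generators of `V₀ = V{6,7,8,9}` -/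
def v1 : Perm (Fin 6) := swap 3 4 * swap 2 5
def v2 : Perm (Fin 6) := swap 2 3 * swap 4 5

variable {G : Type*} [Group G]

/-- `J = ⟨a₁, a₂, a₃⟩` -/
abbrev JJ (a : G) (σ : Perm (Fin 6) →* G) : Subgroup G := closure {a, σ c2, σ c3}

structure FA (a s : G) (σ : Perm (Fin 6) →* G) : Prop where
  a3 : a ^ 3 = 1
  a1 : a ≠ 1
  inj : Function.Injective σ
  act : ∀ π, σ π * a * (σ π)⁻¹ = if Perm.sign π = 1 then a else a⁻¹
  nz : ∀ g : G, g * a * g⁻¹ ∈ zpowers a → ∃ π, ∃ u ∈ zpowers a, g = u * σ π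
  ss : s * s = 1
  sa : s * a * s⁻¹ = σ c3
  sb : s * σ c2 * s⁻¹ = (σ c2)⁻¹
  s01 : s * σ (swap 0 1) * s⁻¹ = σ (swap 0 1 * swap 3 4)
  hb : ∀ g : G, g * σ (c2 * c3) = σ (c2 * c3) * g → g * a * g⁻¹ ∈ zpowers a
  hc : IsPGroup 3 (centralizer ({a * σ (c2 * c3)} : Set G))
  nb : ∀ g : G, g * σ (c2 * c3) * g⁻¹ ∈ zpowers (σ (c2 * c3)) → g * a * g⁻¹ ∈ zpowers a
  nc : ∀ g : G, g * (a * σ (c2 * c3)) * g⁻¹ ∈ zpowers (a * σ (c2 * c3)) →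
    g * a * g⁻¹ ∈ zpowers a ∨ g * a * g⁻¹ ∈ zpowers (σ c2) ∨ g * a * g⁻¹ ∈ zpowers (σ c3)

end Cfsg.Agent.A9M
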