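import Cfsg.Agent.A9R.K23
import Cfsg.Agent.A9M.A

/-! `C(V₀)` does not normalize `⟨a⟩`. -/

set_option autoImplicit false
set_option synthInstance.maxSize 8192
set_option synthInstance.maxHeartbeats 200000

namespace Cfsg.Agent.A9M

open Equiv Subgroup Cfsg.Agent.BG

theorem k23_c1 : ∀ π : Perm (Fin 6), π * v1 = v1 * π → π ^ (2 ^ 2) = 1 := S8R.qd_all.1 (by decide +kernel)
theorem k23_c2 : ∀ π : Perm (Fin 6), π * (c2 * c3) = c2 * c3 * π → π ^ 6 = 1 := S8R.qd_all.1 (by decide +kernel)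
theorem k23_c3 : ∃ c : Perm (Fin 6), c * (c2 * c3) * c⁻¹ * (v1 * swap 0 1) = v1 * swap 0 1 * (c * (c2 * c3) * c⁻¹) :=
  ⟨swap 1 3, by decide +kernel⟩
/-- relabelling of the six points -/
def k23r : Perm (Fin 6) := swap 0 3 * swap 1 4 * swap 3 5 * swap 4 5

variable {G : Type*} [Group G] {a s : G} {σ : Perm (Fin 6) →* G}

theorem FA.k23_o (h : FA a s σ) : orderOf a = 3 := by
  have : Fact (Nat.Prime 3) := ⟨Nat.prime_three⟩
  exact orderOf_eq_prime h.a3 h.a1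

theorem FA.k23_cm (h : FA a s σ) {π : Perm (Fin 6)} (hπ : Perm.sign π = 1) {u : G} (hu : u ∈ zpowers a) :
    u * σ π = σ π * u := by
  obtain ⟨k, rfl⟩ := hu
  have := h.act π
  rw [if_pos hπ] at this
  exact ((show Commute (σ π) a from mul_inv_eq_iff_eq_mul.1 this).zpow_right k).symm

theorem FA.k23_n (h : FA a s σ) (π : Perm (Fin 6)) {u : G} (hu : u ∈ zpowers a) : σ π * u * (σ π)⁻¹ ∈ zpowers a := by
  obtain ⟨k, rfl⟩ := hu
  show σ π * a ^ k * (σ π)⁻¹ ∈ zpowers a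
  rw [← conj_zpow, h.act]
  split_ifs
  exacts [zpow_mem (mem_zpowers a) k, zpow_mem (inv_mem (mem_zpowers a)) k]

theorem FA.k23_pw (h : FA a s σ) (π : Perm (Fin 6)) {u : G} (hu : u ∈ zpowers a) (n : ℕ) :
    ∃ w ∈ zpowers a, (u * σ π) ^ n = w * σ (π ^ n) := by
  induction n with
  | zero => exact ⟨1, one_mem _, by simp⟩
  | succ n ih =>
    obtain ⟨w, hw, e⟩ := ih
    exact ⟨w * (σ (π ^ n) * u * (σ (π ^ n))⁻¹), mul_mem hw (h.k23_n _ hu), by rw [pow_succ, e, pow_succ, map_mul]; group⟩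

theorem FA.k23_u3 (h : FA a s σ) {u : G} (hu : u ∈ zpowers a) : u ^ 3 = 1 := by
  obtain ⟨k, rfl⟩ := hu
  show (a ^ k) ^ 3 = 1
  rw [← zpow_natCast, ← zpow_mul, mul_comm, zpow_mul, zpow_natCast, h.a3, one_zpow]

theorem FA.k23_cc (h : FA a s σ) {u : G} {π τ : Perm (Fin 6)} (h1 : u * σ τ = σ τ * u)
    (h2 : u * σ π * σ τ = σ τ * (u * σ π)) : π * τ = τ * π := h.inj (by
  rw [map_mul, map_mul]
  rw [← mul_assoc, ← h1, mul_assoc, mul_assoc] at h2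
  exact mul_left_cancel h2)

theorem FA.ntr [Finite G] (h : FA a s σ) : ¬ IsConj (σ v1) (σ (v1 * swap 0 1)) := by
  have : Fact (Nat.Prime 3) := ⟨Nat.prime_three⟩
  intro hc
  obtain ⟨g, hg⟩ := isConj_iff.1 hc.symm
  obtain ⟨c, hcc⟩ := k23_c3
  have pa : IsPGroup 3 (zpowers a) := fun x => ⟨1, Subtype.ext (h.k23_u3 x.2)⟩
  have syl : SylowIn 3 (zpowers a) C1[σ v1] := max_pgroup_Sylow
    (fun u hu => mem_cent1.2 (h.k23_cm (by decide +kernel) hu)) pa fun Q hQ hle hQC => by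
    by_contra hne
    obtain ⟨x, ⟨xQ, xN⟩, xT⟩ := SetLike.exists_of_lt
      (nilpotent_proper_norm (pgroup_nil hQ) (lt_of_le_of_ne hle (Ne.symm hne)))
    obtain ⟨π, u, hu, rfl⟩ := h.nz x ((mem_normalizer_iff.1 xN a).1 (mem_zpowers a))
    have xQ' : u * σ π ∈ Q := xQ
    have p1 := k23_c1 π (h.k23_cc (h.k23_cm (by decide +kernel) hu) (mem_cent1.1 (hQC xQ')))
    have uQ : σ π ∈ Q := by simpa using Q.mul_mem (Q.inv_mem (hle hu)) xQ'
    obtain ⟨n, hn⟩ := hQ ⟨_, uQ⟩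
    have hn' : σ π ^ (3 ^ n) = 1 := congrArg Subtype.val hn
    have : σ π = 1 := orderOf_eq_one_iff.1 (Nat.eq_one_of_dvd_coprimes
      (Nat.Coprime.pow_left n (by norm_num : Nat.Coprime 3 (2 ^ 2))) (orderOf_dvd_of_pow_eq_one hn')
      (orderOf_dvd_of_pow_eq_one (by rw [← map_pow, p1, map_one])))
    exact xT (by rw [this, mul_one]; exact hu)
  set B := g * σ (c * (c2 * c3) * c⁻¹) * g⁻¹ with hB
  have B3 : B ^ 3 = 1 := by
    rw [hB, conj_pow, ← map_pow, conj_pow, show (c2 * c3) ^ 3 = 1 by decide +kernel]; simp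
  have pB : IsPGroup 3 (zpowers B) := by
    rintro ⟨x, k, rfl⟩
    refine ⟨1, Subtype.ext ?_⟩
    show (B ^ k) ^ (3 ^ 1) = 1
    rw [pow_one, ← zpow_natCast, ← zpow_mul, mul_comm, zpow_mul, zpow_natCast, B3, one_zpow]
  have BC : zpowers B ≤ C1[σ v1] := zpowers_le.2 (mem_cent1.2 (by
    rw [← hg, hB, conj_mul, conj_mul, ← map_mul, ← map_mul, hcc]))
  obtain ⟨k, -, hk⟩ := Sylow_Jsub syl BC pB
  have hk' : k * B * k⁻¹ ∈ zpowers a := hk ⟨B, mem_zpowers B, rfl⟩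
  have e1 : k * B * k⁻¹ = (k * g * σ c) * σ (c2 * c3) * (k * g * σ c)⁻¹ := by
    rw [hB, map_mul σ (c * (c2 * c3)), map_mul σ c, map_inv]; group
  generalize k * g * σ c = m at e1
  rw [e1] at hk'
  have f1 := h.k23_cm (π := swap 0 1 * swap 1 2 * swap 2 3 * swap 3 4) (by decide +kernel) hk'
  have f5 : σ (swap 0 1 * swap 1 2 * swap 2 3 * swap 3 4) ^ 5 = 1 := by
    rw [← map_pow, show (swap 0 1 * swap 1 2 * swap 2 3 * swap 3 4 : Perm (Fin 6)) ^ 5 = 1 by decide +kernel, map_one]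
  have fn : σ (swap 0 1 * swap 1 2 * swap 2 3 * swap 3 4) ≠ 1 := fun e =>
    absurd (h.inj (e.trans (map_one σ).symm)) (by decide +kernel)
  generalize σ (swap 0 1 * swap 1 2 * swap 2 3 * swap 3 4) = f at f1 f5 fn
  have f2 : m⁻¹ * f * m * σ (c2 * c3) = σ (c2 * c3) * (m⁻¹ * f * m) := by
    calc _ = m⁻¹ * (f * (m * σ (c2 * c3) * m⁻¹)) * m := by group
      _ = _ := by rw [← f1]; group
  obtain ⟨π, u, hu, e2⟩ := h.nz _ (h.hb _ f2)
  have p6 := k23_c2 π (h.k23_cc (h.k23_cm (by decide +kernel) hu) (e2 ▸ f2))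
  obtain ⟨w, hw, e3⟩ := h.k23_pw π hu 6
  rw [← e2, p6, map_one, mul_one] at e3
  have x5 : (m⁻¹ * f * m) ^ 5 = 1 := by
    have := conj_pow (i := 5) (a := m⁻¹) (b := f)
    rw [inv_inv] at this
    rw [this, f5]; simp
  have x18 : (m⁻¹ * f * m) ^ (6 * 3) = 1 := by rw [pow_mul, e3, h.k23_u3 hw]
  have : m⁻¹ * f * m = 1 := orderOf_eq_one_iff.1 (Nat.eq_one_of_dvd_coprimes
    (by norm_num : Nat.Coprime 5 (6 * 3)) (orderOf_dvd_of_pow_eq_one x5) (orderOf_dvd_of_pow_eq_one x18))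
  exact fn (by
    calc f = m * (m⁻¹ * f * m) * m⁻¹ := by group
      _ = 1 := by rw [this]; group)

theorem FA.k3 [Finite G] (h : FA a s σ) : ∃ g, Commute g (σ v1) ∧ Commute g (σ v2) ∧ g * a * g⁻¹ ∉ zpowers a := by
  obtain ⟨c, e1, e2, e3, e4⟩ : ∃ c : Perm (Fin 6), c * (swap 0 1 * swap 2 3) * c⁻¹ = v1 ∧ c * (swap 0 2 * swap 1 3) * c⁻¹ = v2 ∧
      c * (swap 4 5) * c⁻¹ = swap 0 1 ∧ c * (swap 0 1 * swap 2 3 * swap 4 5) * c⁻¹ = v1 * swap 0 1 :=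
    ⟨k23r, by decide +kernel⟩
  have ev : ∀ π, (σ.comp (MulAut.conj c).toMonoidHom) π = σ (c * π * c⁻¹) := fun π => rfl
  obtain ⟨g, g1, g2, g3⟩ := A9R.K23.ks3 h.k23_o (σ.comp (MulAut.conj c).toMonoidHom)
    (h.inj.comp (MulAut.conj c).injective)
    (fun π => by rw [ev, h.act, map_mul, map_mul, map_inv, mul_inv_cancel_comm])
    (fun g hg => by
      obtain ⟨π, u, hu, e⟩ := h.nz g ((mem_normalizer_iff.1 hg a).1 (mem_zpowers a))
      exact ⟨c⁻¹ * π * c, u, hu, by rw [ev, e, show c * (c⁻¹ * π * c) * c⁻¹ = π by group]⟩)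
    (by
      rw [ev, ev, e1, e3]
      refine IsConj.trans ?_ (isConj_iff.2 ⟨s, h.s01⟩).symm
      exact isConj_iff.2 ⟨σ (swap 0 2 * swap 1 5), by rw [← map_inv, ← map_mul, ← map_mul]; congr 1; decide +kernel⟩)
    (by rw [ev, ev, e1, e4]; exact h.ntr)
  rw [ev, e1] at g1
  rw [ev, e2] at g2
  refine ⟨g, g1, g2, fun hm => g3 (mem_normalizer_fintype fun n hn => ?_)⟩
  obtain ⟨m, rfl⟩ := hn
  have := zpow_mem hm m
  rwa [conj_zpow] at this

end Cfsg.Agent.A9M
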