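import Cfsg.Agent.A9M.A

/-! Pieces for `FA.cV` (helper18). -/

set_option autoImplicit false

namespace Cfsg.Agent.A9M

open Equiv Subgroup

variable {G : Type*} [Group G]

theorem x2syl [Finite G] {M : Subgroup G} {a : G} (aM : a ∈ M) (a3 : a ^ 3 = 1)
    (H : ∀ t ∈ M, (∃ n, t ^ (3 ^ n) = 1) → t * a * t⁻¹ ∈ zpowers a → t ∈ zpowers a) :
    ∀ k ∈ M, k ^ 3 = 1 → ∃ m ∈ M, m * k * m⁻¹ ∈ zpowers a := fun k kM k3 => by
  haveI : Fact (Nat.Prime 3) := ⟨Nat.prime_three⟩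
  have pg : ∀ x : M, x ^ 3 = 1 → IsPGroup 3 (zpowers x) := fun x hx ⟨y, j, hj⟩ =>
    ⟨1, Subtype.ext (by
      simp only [pow_one, SubgroupClass.coe_pow, OneMemClass.coe_one]
      rw [← hj, ← zpow_natCast, ← zpow_mul, mul_comm, zpow_mul, zpow_natCast, hx, one_zpow])⟩
  obtain ⟨P, hP⟩ := (pg ⟨a, aM⟩ (Subtype.ext a3)).exists_le_sylow
  obtain ⟨Q, hQ⟩ := (pg ⟨k, kM⟩ (Subtype.ext k3)).exists_le_sylow
  have PA : (P : Subgroup M) ≤ zpowers (⟨a, aM⟩ : M) := by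
    by_contra hn
    haveI := P.isPGroup'.isNilpotent
    have lt : (zpowers (⟨a, aM⟩ : M)).subgroupOf P < ⊤ := lt_top_iff_ne_top.2 fun e => hn (subgroupOf_eq_top.1 e)
    obtain ⟨t, ht, hn⟩ := SetLike.exists_of_lt (normalizerCondition_of_isNilpotent _ lt)
    obtain ⟨n, e⟩ := P.isPGroup' t
    have h1 := (mem_normalizer_iff.1 ht ⟨⟨a, aM⟩, hP (mem_zpowers _)⟩).1 (mem_subgroupOf.2 (mem_zpowers _))
    obtain ⟨j, hj⟩ := mem_subgroupOf.1 h1
    obtain ⟨i, hi⟩ := H t.1.1 t.1.2 ⟨n, by simpa using congrArg (fun z : P => z.1.1) e⟩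
      ⟨j, by simpa using congrArg Subtype.val hj⟩
    exact hn (mem_subgroupOf.2 ⟨i, Subtype.ext (by simpa using hi)⟩)
  obtain ⟨m, rfl⟩ := MulAction.exists_smul_eq M Q P
  obtain ⟨j, hj⟩ := PA (show m * ⟨k, kM⟩ * m⁻¹ ∈ ((m • Q : Sylow 3 M) : Subgroup M) from
    ⟨⟨k, kM⟩, hQ (mem_zpowers _), rfl⟩)
  exact ⟨m, m.2, j, by simpa using congrArg Subtype.val hj⟩

variable {a s : G} {σ : Perm (Fin 6) →* G}

theorem FA.x2c (h : FA a s σ) {π : Perm (Fin 6)} (e : Perm.sign π = 1) : Commute (σ π) a := by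
  have := h.act π
  rw [if_pos e] at this
  exact mul_inv_eq_iff_eq_mul.1 this

theorem FA.x2cu (h : FA a s σ) {π : Perm (Fin 6)} (e : Perm.sign π = 1) {u : G} (hu : u ∈ zpowers a) :
    Commute (σ π) u := by
  obtain ⟨j, rfl⟩ := hu
  exact (h.x2c e).zpow_right j

theorem FA.x2n (h : FA a s σ) {g : G} (hg : g * a * g⁻¹ ∈ zpowers a) :
    g * a * g⁻¹ = a⁻¹ ∨ ∃ π, Perm.sign π = 1 ∧ ∃ u ∈ zpowers a, g = u * σ π := by
  obtain ⟨π, _, ⟨j, rfl⟩, rfl⟩ := h.nz g hg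
  by_cases e : Perm.sign π = 1
  · exact .inr ⟨π, e, _, ⟨j, rfl⟩, rfl⟩
  · have := h.act π
    rw [if_neg e] at this
    left
    calc _ = a ^ j * (σ π * a * (σ π)⁻¹) * (a ^ j)⁻¹ := by group
      _ = _ := by rw [this]; group

theorem FA.x2i (h : FA a s σ) : a ≠ a⁻¹ := fun e => h.a1 (by
  have := h.a3
  calc a = a ^ 3 * (a⁻¹ * a⁻¹) := by group
    _ = a * a⁻¹ := by rw [this, one_mul]; nth_rewrite 1 [← e]; rfl
    _ = 1 := by group)

theorem FA.x2z (h : FA a s σ) {g : G} (hg : g * a = a * g) :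
    ∃ π, Perm.sign π = 1 ∧ ∃ u ∈ zpowers a, g = u * σ π := by
  have e : g * a * g⁻¹ = a := by rw [hg]; group
  rcases h.x2n (g := g) (e.symm ▸ mem_zpowers a) with c | c
  · exact absurd (e.symm.trans c) h.x2i
  · exact c

theorem FA.x2u3 (h : FA a s σ) {u : G} (hu : u ∈ zpowers a) : u ^ 3 = 1 := by
  obtain ⟨j, rfl⟩ := hu
  simp only
  rw [← zpow_natCast, ← zpow_mul, mul_comm, zpow_mul, zpow_natCast, h.a3, one_zpow]

theorem x2d1 : ∀ π : Perm (Fin 6), Perm.sign π = 1 → π * (c2 * c3) = c2 * c3 * π → π * π * π = 1 := by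
  decide +kernel

theorem x2d2 : ∀ π : Perm (Fin 6), Perm.sign π = 1 → π * v1 = v1 * π → π * v2 = v2 * π →
    π = 1 ∨ π = v1 ∨ π = v2 ∨ π = v1 * v2 := by
  decide +kernel

theorem x2d3 : ∀ π : Perm (Fin 6), π * v1 = v1 * π → π * c2 = c2 * π → π * c3 = c3 * π → π = 1 := by
  decide +kernel

theorem FA.x2b [Finite G] (h : FA a s σ) (K : Subgroup G) (h3 : ¬ 3 ∣ Nat.card K)
    (hK : ∀ g ∈ K, g * σ (c2 * c3) = σ (c2 * c3) * g) : Nat.card K ≤ 2 := by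
  have k1 : ∀ g ∈ K, g * a = a * g → g = 1 := fun g hg e => by
    obtain ⟨π, e1, u, hu, rfl⟩ := h.x2z e
    have c := h.x2cu (π := c2 * c3) (by decide +kernel) hu
    have e2 : π * (c2 * c3) = c2 * c3 * π := h.inj (by
      rw [map_mul σ π, map_mul σ _ π]
      have := hK _ hg
      rw [← mul_assoc, c.eq, mul_assoc, mul_assoc] at this
      exact mul_left_cancel this)
    have e3 : (u * σ π) ^ 3 = 1 := by
      rw [(h.x2cu e1 hu).symm.mul_pow, h.x2u3 hu, one_mul, ← map_pow, pow_three', x2d1 π e1 e2, map_one]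
    by_contra hn
    haveI : Fact (Nat.Prime 3) := ⟨Nat.prime_three⟩
    exact h3 (orderOf_eq_prime e3 hn ▸ K.orderOf_dvd_natCard hg)
  have k2 : ∀ g ∈ K, ¬ g * a = a * g → g * a * g⁻¹ = a⁻¹ := fun g hg e => by
    rcases h.x2n (h.hb g (hK g hg)) with c | ⟨π, e1, _, ⟨j, rfl⟩, rfl⟩
    · exact c
    · exact absurd (((Commute.refl a).zpow_left j).mul_left (h.x2c e1)).eq e
  have inj : Function.Injective fun g : K => g.1 * a = a * g.1 := fun x y e => by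
    simp only [eq_iff_iff] at e
    by_cases c : x.1 * a = a * x.1
    · exact Subtype.ext ((k1 _ x.2 c).trans (k1 _ y.2 (e.1 c)).symm)
    · have e1 := k2 _ x.2 c
      have e2 := k2 _ y.2 (fun d => c (e.2 d))
      have := k1 _ (mul_mem (inv_mem x.2) y.2) (by
        calc _ = x.1⁻¹ * (y.1 * a * y.1⁻¹) * y.1 := by group
          _ = _ := by rw [e2, ← e1]; group)
      exact Subtype.ext (inv_mul_eq_one.1 this)
  simpa using Nat.card_le_card_of_injective _ inj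

theorem FA.x2y (h : FA a s σ) {g : G} (hg : g * σ c3 = σ c3 * g) :
    ∃ π, Perm.sign π = 1 ∧ ∃ u ∈ zpowers a, g = s * (u * σ π) * s⁻¹ := by
  obtain ⟨π, e, u, hu, e1⟩ := h.x2z (g := s⁻¹ * g * s) (by
    rw [← h.sa] at hg
    calc _ = s⁻¹ * (g * (s * a * s⁻¹)) * s := by group
      _ = _ := by rw [hg]; group)
  exact ⟨π, e, u, hu, by rw [← e1]; group⟩

theorem FA.x27 [Finite G] (h : FA a s σ) : ¬ 7 ∣ Nat.card (centralizer ({σ c3} : Set G)) := fun d => by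
  haveI : Fact (Nat.Prime 7) := ⟨by norm_num⟩
  obtain ⟨g, hg⟩ := exists_prime_orderOf_dvd_card' 7 d
  obtain ⟨π, e, u, hu, e1⟩ := h.x2y (g := g.1) (mem_centralizer_singleton_iff.1 g.2)
  have p : π ^ 720 = 1 := by
    have := pow_card_eq_one' (x := π)
    rwa [Nat.card_perm, Nat.card_eq_fintype_card, Fintype.card_fin] at this
  have : g ^ 720 = 1 := Subtype.ext (by
    rw [SubgroupClass.coe_pow, e1, conj_pow, (h.x2cu e hu).symm.mul_pow, ← map_pow, p, map_one,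
      show 720 = 3 * 240 from rfl, pow_mul, h.x2u3 hu]
    simp)
  have := orderOf_dvd_of_pow_eq_one this
  rw [hg] at this
  omega

end Cfsg.Agent.A9M
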