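import Cfsg.Agent.A9M.X3b
import Cfsg.Agent.A9M.K23

/-! The four-group `V₀` commutes with the `A₅` on the other five points. -/

set_option autoImplicit false

namespace Cfsg.Agent.A9M

open Equiv Subgroup

variable {G : Type*} [Group G] {a s : G} {σ : Perm (Fin 6) →* G}

theorem FA.five [Finite G] (h : FA a s σ)
    (cU : ∀ g, Commute g (σ (swap 3 4 * swap 2 5)) → Commute g (σ (swap 3 4 * swap 0 1)) → g * a * g⁻¹ ∈ zpowers a)
    (cV : ∀ g, Commute g (σ v1) → Commute g (σ v2) → ∃ v ∈ closure {σ v1, σ v2}, ∃ π, Perm.sign π = 1 ∧ g = v * (s * σ π * s⁻¹)) :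
    ∀ π, Perm.sign π = 1 → π 2 = 2 → Commute (s * σ π * s⁻¹) (σ v1) ∧ Commute (s * σ π * s⁻¹) (σ v2) :=
  h.five_of' cU cV h.k3

end Cfsg.Agent.A9M
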