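import Cfsg.Agent.A9M.A

/-! The four-group `V₀` commutes with the `A₅` on the other five points (given the subgroup list and the `S₃` kill). -/

set_option autoImplicit false

namespace Cfsg.Agent.A9M

open Equiv Subgroup

variable {G : Type*} [Group G] {a s : G} {σ : Perm (Fin 6) →* G}

/-- the permutations whose `s`-conjugate image centralizes `V₀` -/
def x3M (s : G) (σ : Perm (Fin 6) →* G) : Subgroup (Perm (Fin 6)) :=
  ((centralizer {σ v1} ⊓ centralizer {σ v2}).comap (MulAut.conj s).toMonoidHom).comap σ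

theorem mem_x3M {π : Perm (Fin 6)} : π ∈ x3M s σ ↔ Commute (s * σ π * s⁻¹) (σ v1) ∧ Commute (s * σ π * s⁻¹) (σ v2) := by
  simp only [x3M, mem_comap, mem_inf, mem_centralizer_singleton_iff]; rfl

theorem FA.five_of (h : FA a s σ)
    (cU : ∀ g, Commute g (σ (swap 3 4 * swap 2 5)) → Commute g (σ (swap 3 4 * swap 0 1)) → g * a * g⁻¹ ∈ zpowers a)
    (cV : ∀ g, Commute g (σ v1) → Commute g (σ v2) → ∃ v ∈ closure {σ v1, σ v2}, ∃ π, Perm.sign π = 1 ∧ g = v * (s * σ π * s⁻¹))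
    (k3 : ¬ ∀ g, Commute g (σ v1) → Commute g (σ v2) → g * a * g⁻¹ ∈ zpowers a)
    (l6 : ∀ L : Subgroup (Perm (Fin 6)), c3 ∈ L → swap 0 1 * swap 3 4 ∈ L → ∀ g ∈ L, g * c3 * g⁻¹ ∉ zpowers c3 →
      v1 ∈ L ∨ c2 ∈ L ∨ ∀ π : Perm (Fin 6), π 2 = 2 → Perm.sign π = 1 → π ∈ L) :
    ∀ π, Perm.sign π = 1 → π 2 = 2 → Commute (s * σ π * s⁻¹) (σ v1) ∧ Commute (s * σ π * s⁻¹) (σ v2) := by
  have ss : ∀ x : G, s * (s * x * s⁻¹) * s⁻¹ = x := fun x => by
    rw [show s * (s * x * s⁻¹) * s⁻¹ = s * s * x * (s * s)⁻¹ by group, h.ss]; group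
  have ea : s * σ c3 * s⁻¹ = a := by rw [← h.sa, ss]
  have cm : ∀ {p q : Perm (Fin 6)}, p * q = q * p → Commute (σ p) (σ q) := fun e => (show Commute _ _ from e).map σ
  have ac : ∀ {p : Perm (Fin 6)}, Perm.sign p = 1 → Commute a (σ p) := fun {p} e => by
    have := h.act p
    rw [if_pos e] at this
    exact (mul_inv_eq_iff_eq_mul.1 this).symm
  have nrm : ∀ {p : Perm (Fin 6)}, s * σ p * s⁻¹ * a * (s * σ p * s⁻¹)⁻¹ ∈ zpowers a ↔ p * c3 * p⁻¹ ∈ zpowers c3 := fun {p} => by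
    rw [← ea, show s * σ p * s⁻¹ * (s * σ c3 * s⁻¹) * (s * σ p * s⁻¹)⁻¹ = s * σ (p * c3 * p⁻¹) * s⁻¹ by
      rw [map_mul, map_mul, map_inv]; group]
    constructor
    · rintro ⟨k, hk⟩
      refine ⟨k, h.inj ?_⟩
      beta_reduce at hk ⊢
      rw [conj_zpow] at hk
      rw [map_zpow]; exact mul_left_cancel (mul_right_cancel hk)
    · rintro ⟨k, hk⟩
      refine ⟨k, ?_⟩
      beta_reduce at hk ⊢
      rw [conj_zpow, ← map_zpow, hk]
  push Not at k3
  obtain ⟨g, g1, g2, hg⟩ := k3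
  obtain ⟨v, hv, π, -, rfl⟩ := cV g g1 g2
  have vv : Commute v (σ v1) ∧ Commute v (σ v2) ∧ Commute v a := by
    refine closure_induction (p := fun v _ => Commute v (σ v1) ∧ Commute v (σ v2) ∧ Commute v a) ?_
      ⟨.one_left _, .one_left _, .one_left _⟩ (fun x y _ _ p q => ⟨p.1.mul_left q.1, p.2.1.mul_left q.2.1, p.2.2.mul_left q.2.2⟩)
      (fun x _ p => ⟨p.1.inv_left, p.2.1.inv_left, p.2.2.inv_left⟩) hv
    rintro _ (rfl | rfl)
    · exact ⟨.refl _, cm (by decide), (ac (by decide)).symm⟩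
    · exact ⟨cm (by decide), .refl _, (ac (by decide)).symm⟩
  have πM : π ∈ x3M s σ := mem_x3M.2 ⟨by simpa using vv.1.inv_left.mul_left g1, by simpa using vv.2.1.inv_left.mul_left g2⟩
  have πn : π * c3 * π⁻¹ ∉ zpowers c3 := fun e => hg (by
    obtain ⟨k, hk⟩ := nrm.2 e
    refine ⟨k, ?_⟩
    beta_reduce at hk ⊢
    rw [show v * (s * σ π * s⁻¹) * a * (v * (s * σ π * s⁻¹))⁻¹ = v * (s * σ π * s⁻¹ * a * (s * σ π * s⁻¹)⁻¹) * v⁻¹ by group, ← hk,
      (vv.2.2.zpow_right k).eq, mul_inv_cancel_right])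
  rcases l6 (x3M s σ) (mem_x3M.2 (by rw [ea]; exact ⟨ac (by decide), ac (by decide)⟩))
    (mem_x3M.2 (by rw [← h.s01, ss]; exact ⟨cm (by decide), cm (by decide)⟩)) π πM πn with e | e | e
  · have := nrm.1 (cU _ (mem_x3M.1 e).1 (by
      rw [show (swap 3 4 * swap 0 1 : Perm (Fin 6)) = swap 0 1 * swap 3 4 by decide, ← h.s01]
      exact (cm (by decide)).conj s))
    obtain ⟨k, hk⟩ := (mem_powers_iff_mem_zpowers.2 this :)
    beta_reduce at hk
    have e2 : (c3 ^ k) 2 = 2 := Perm.pow_apply_eq_self_of_apply_eq_self (by decide) k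
    rw [hk] at e2
    exact absurd e2 (by decide)
  · have := (mem_x3M.1 e).1
    rw [h.sb, ← map_inv] at this
    exact absurd (h.inj ((map_mul σ _ _).trans (this.eq.trans (map_mul σ _ _).symm))) (by decide)
  · exact fun π e1 e2 => mem_x3M.1 (e π e2 e1)

end Cfsg.Agent.A9M
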