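import Cfsg.Agent.A9M.X3a
import Cfsg.Agent.A9R.L6

/-! The subgroup list in the labels of the frame, and `five` from the `S₃` kill. -/

set_option autoImplicit false

namespace Cfsg.Agent.A9M

open Equiv Subgroup

theorem x3_l6 (L : Subgroup (Perm (Fin 6))) (h3 : c3 ∈ L) (hr : swap 0 1 * swap 3 4 ∈ L) (g : Perm (Fin 6)) (hg : g ∈ L)
    (hn : g * c3 * g⁻¹ ∉ zpowers c3) : v1 ∈ L ∨ c2 ∈ L ∨ ∀ π : Perm (Fin 6), π 2 = 2 → Perm.sign π = 1 → π ∈ L := by
  let t : Perm (Fin 6) := swap 0 2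
  have tt : t * t = 1 := swap_mul_self _ _
  have ti : t⁻¹ = t := swap_inv _ _
  let L' : Subgroup (Perm (Fin 6)) := L.comap (MulAut.conj t).toMonoidHom
  have mem : ∀ x, x ∈ L' ↔ t * x * t⁻¹ ∈ L := fun x => Iff.rfl
  have e3 : (Pres.c3 3 4 5 : Perm (Fin 6)) = c3 := by decide
  have e3' : t * c3 * t⁻¹ = c3 := by decide
  have bk : ∀ x : Perm (Fin 6), t * (t * x * t⁻¹) * t⁻¹ = x := fun x => by
    rw [show t * (t * x * t⁻¹) * t⁻¹ = t * t * x * (t * t)⁻¹ by group, tt]; group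
  have h := A9R.l6 L' (by rw [mem, e3, e3']; exact h3)
    (by rw [mem, show t * (swap 1 2 * swap 3 4) * t⁻¹ = swap 0 1 * swap 3 4 by decide]; exact hr)
    (g := t * g * t⁻¹) (by rw [mem, bk]; exact hg) (by
      rw [e3]
      rintro ⟨k, hk⟩
      refine hn ⟨k, ?_⟩
      have h1 : t * (c3 ^ k) * t⁻¹ = c3 ^ k := by
        rw [← conj_zpow, e3']
      simp only at hk ⊢
      rw [← h1, hk]
      calc t * (t * g * t⁻¹ * c3 * (t * g * t⁻¹)⁻¹) * t⁻¹ = t * t * g * (t⁻¹ * c3 * t) * g⁻¹ * (t * t)⁻¹ := by group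
        _ = g * c3 * g⁻¹ := by
          rw [tt, show t⁻¹ * c3 * t = c3 by decide]; group)
  rcases h with h | h | h
  · left
    rw [mem, show t * (swap 0 5 * swap 3 4) * t⁻¹ = v1 by decide] at h; exact h
  · right; left
    rw [mem] at h
    have e : c2 = (t * Pres.c3 0 1 2 * t⁻¹)⁻¹ := by decide
    rw [e]; exact L.inv_mem h
  · right; right
    intro π h2 hs
    have := h (t * π * t⁻¹) (by
      rw [ti]; simp only [Perm.mul_apply]
      rw [show t 0 = 2 by decide, h2]; decide) (by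
      rw [Perm.sign_mul, Perm.sign_mul, Perm.sign_inv, hs, mul_one]; exact Int.units_mul_self _)
    rwa [mem, bk] at this

variable {G : Type*} [Group G] {a s : G} {σ : Perm (Fin 6) →* G}

theorem FA.five_of' (h : FA a s σ)
    (cU : ∀ g, Commute g (σ (swap 3 4 * swap 2 5)) → Commute g (σ (swap 3 4 * swap 0 1)) → g * a * g⁻¹ ∈ zpowers a)
    (cV : ∀ g, Commute g (σ v1) → Commute g (σ v2) → ∃ v ∈ closure {σ v1, σ v2}, ∃ π, Perm.sign π = 1 ∧ g = v * (s * σ π * s⁻¹))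
    (k3 : ∃ g, Commute g (σ v1) ∧ Commute g (σ v2) ∧ g * a * g⁻¹ ∉ zpowers a) :
    ∀ π, Perm.sign π = 1 → π 2 = 2 → Commute (s * σ π * s⁻¹) (σ v1) ∧ Commute (s * σ π * s⁻¹) (σ v2) :=
  h.five_of cU cV (fun H => by obtain ⟨g, h1, h2, h3⟩ := k3; exact h3 (H g h1 h2)) x3_l6

end Cfsg.Agent.A9M
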