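import Cfsg.Agent.A9M.A
import Cfsg.Agent.A9R.AM
import Cfsg.Agent.A9S.N3

/-! The copy of `Alt(9)` containing all normalizers of subgroups of order 3. (helper12) -/

set_option autoImplicit false
set_option maxRecDepth 100000

namespace Cfsg.Agent.A9M

open Equiv Subgroup Cfsg.Agent.A9R Cfsg.Agent.A9S

variable {G : Type*} [Group G] {a s : G} {σ : Perm (Fin 6) →* G}

/-- relabelling -/
def x4g : Perm (Fin 6) := ⟨![3, 4, 5, 2, 0, 1], ![4, 5, 3, 0, 1, 2], by decide, by decide⟩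

theorem FA.phi (h : FA a s σ)
    (five : ∀ π, Perm.sign π = 1 → π 2 = 2 → Commute (s * σ π * s⁻¹) (σ v1) ∧ Commute (s * σ π * s⁻¹) (σ v2)) :
    ∃ φ : alternatingGroup (Fin 9) →* G, Function.Injective φ ∧
      ∀ x, orderOf x = 3 → ∀ g : G, g * φ x * g⁻¹ ∈ zpowers (φ x) → g ∈ φ.range := by
  let τ : alternatingGroup (Fin 6) →* G := σ.comp ((MulAut.conj x4g).toMonoidHom.comp (alternatingGroup (Fin 6)).subtype)
  let ρ : alternatingGroup (Fin 6) →* G := (MulAut.conj s).toMonoidHom.comp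
    (σ.comp ((MulAut.conj (swap 0 2)).toMonoidHom.comp (alternatingGroup (Fin 6)).subtype))
  have hτ : ∀ π, τ π = σ (x4g * π.1 * x4g⁻¹) := fun _ => rfl
  have hρ : ∀ π, ρ π = s * σ (swap 0 2 * π.1 * (swap 0 2)⁻¹) * s⁻¹ := fun _ => rfl
  have sg : ∀ (g : Perm (Fin 6)) (π : alternatingGroup (Fin 6)), Perm.sign (g * π.1 * g⁻¹) = 1 := fun g π => by
    rw [map_mul, map_mul, map_inv, Perm.mem_alternatingGroup.1 π.2]; simp
  have si : s⁻¹ = s := inv_eq_of_mul_eq_one_right h.ss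
  have t2 : τ (amc 2 0 1) = σ c3 := congrArg σ (by decide +kernel)
  have cc : ∀ π, Commute (ρ π) (σ c3) := fun π => by
    have e := h.act (swap 0 2 * π.1 * (swap 0 2)⁻¹)
    rw [if_pos (sg _ π)] at e
    rw [hρ, ← h.sa]
    generalize σ _ = z at e
    calc s * z * s⁻¹ * (s * a * s⁻¹) = s * (z * a * z⁻¹) * z * s⁻¹ := by group
      _ = s * a * s⁻¹ * (s * z * s⁻¹) := by rw [e]; group
  obtain ⟨φ, inj, hi, lo⟩ := am ρ τ (by rw [t2]; exact fun e => absurd (h.inj (e.trans (map_one σ).symm)) (by decide +kernel))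
    (fun π => by rw [t2]; exact cc π)
    (fun π e => by
      have v := (five _ (sg (swap 0 2) π) (by simp [e])).1
      rw [show τ (amc 3 0 1) = σ v1 * (σ c3)⁻¹ * (σ v1)⁻¹ by
        rw [← map_inv, ← map_inv, ← map_mul, ← map_mul]; exact congrArg σ (by decide +kernel)]
      exact ((v.mul_right (cc π).inv_right).mul_right v.inv_right).eq)
    (by
      rw [hρ, hτ, show swap 0 2 * (amc (0 : Fin 6) 1 2).1 * (swap 0 2)⁻¹ = c2⁻¹ by decide +kernel,
        show x4g * (amc (3 : Fin 6) 4 5).1 * x4g⁻¹ = c2 by decide +kernel, map_inv, ← conj_inv, h.sb, inv_inv])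
  have pz' : φ pz = σ c3 := by
    rw [← t2, ← lo, amE_eq amLo _ pz (by decide +kernel) (by decide +kernel)]
  have py' : φ py = σ c2 := by
    rw [← amE_eq amLo (amc 3 4 5) py (by decide +kernel) (by decide +kernel), lo]
    exact congrArg σ (by decide +kernel)
  have px' : φ px = a := by
    rw [← amE_eq amHi (amc 3 4 5) px (by decide +kernel) (by decide +kernel), hi, hρ,
      show swap 0 2 * (amc (3 : Fin 6) 4 5).1 * (swap 0 2)⁻¹ = c3 by decide +kernel, ← h.sa, si]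
    calc _ = (s * s) * a * (s * s) := by group
      _ = a := by rw [h.ss]; group
  have ev : ∀ π : Perm (Fin 6), Perm.sign π = 1 → σ π ∈ φ.range := fun π e =>
    ⟨amE amLo ⟨x4g⁻¹ * π * x4g⁻¹⁻¹, Perm.mem_alternatingGroup.2 (sg _ ⟨π, Perm.mem_alternatingGroup.2 e⟩)⟩, by
      rw [lo, hτ]; congr 1; group⟩
  have od : σ (swap 0 1) ∈ φ.range :=
    ⟨amE amHi ⟨swap 1 2 * swap 3 4, Perm.mem_alternatingGroup.2 (by decide +kernel)⟩, by
      rw [hi, hρ, show swap 0 2 * (swap 1 2 * swap 3 4 : Perm (Fin 6)) * (swap 0 2)⁻¹ = swap 0 1 * swap 3 4 by decide +kernel,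
        ← h.s01, si]
      calc _ = (s * s) * σ (swap 0 1) * (s * s) := by group
        _ = _ := by rw [h.ss]; group⟩
  have NA : ∀ g, g * a * g⁻¹ ∈ zpowers a → g ∈ φ.range := fun g hg => by
    obtain ⟨π, u, hu, rfl⟩ := h.nz g hg
    refine mul_mem (zpowers_le.2 (⟨px, px'⟩ : a ∈ φ.range) hu) ?_
    rcases Int.units_eq_one_or (Perm.sign π) with e | e
    · exact ev π e
    · have := mul_mem (ev (π * swap 0 1) (by rw [map_mul, e]; decide +kernel)) od
      rwa [← map_mul, mul_assoc, swap_mul_self, mul_one] at this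
  have tr : ∀ c p : A9, c * px * c⁻¹ = p → ∀ g, g * a * g⁻¹ ∈ zpowers (φ p) → g ∈ φ.range := fun c p e g ⟨k, hk⟩ => by
    subst e
    have := NA ((φ c)⁻¹ * g) ⟨k, by
      simp only [map_mul, map_inv, px', conj_zpow] at hk ⊢
      calc _ = (φ c)⁻¹ * (φ c * a ^ k * (φ c)⁻¹) * φ c := by group
        _ = _ := by rw [hk]; group⟩
    simpa using mul_mem (⟨c, rfl⟩ : φ c ∈ φ.range) this
  have tz := tr ⟨swap 0 6 * swap 1 7 * swap 2 8 * swap 3 4, Perm.mem_alternatingGroup.2 (by decide +kernel)⟩ pz (by decide +kernel)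
  have ty := tr ⟨swap 3 6 * swap 4 7 * swap 5 8 * swap 0 1, Perm.mem_alternatingGroup.2 (by decide +kernel)⟩ py (by decide +kernel)
  rw [pz'] at tz
  rw [py'] at ty
  have zy : φ (pz * py) = σ (c2 * c3) := by rw [map_mul, pz', py', ← map_mul]; exact congrArg σ (by decide +kernel)
  refine ⟨φ, inj, n3_of φ ?_⟩
  rintro _ (rfl | rfl | rfl) g hg
  · rw [pz'] at hg
    have := mul_mem (tz (g * s) (by rwa [← h.sa, ← mul_assoc, ← mul_assoc, mul_assoc _ s⁻¹, ← mul_inv_rev, h.sa] at hg))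
      (inv_mem (tz s (h.sa ▸ mem_zpowers _)))
    simpa using this
  · rw [zy] at hg
    exact NA g (h.nb g hg)
  · have e := h.act (c2 * c3)
    rw [if_pos (by decide +kernel), mul_inv_eq_iff_eq_mul] at e
    rw [map_mul, zy, px', e] at hg
    rcases h.nc g hg with k | k | k
    exacts [NA g k, ty g k, tz g k]

end Cfsg.Agent.A9M
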